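import Cfsg.Agent.Unitary.Spectrum
import Cfsg.Agent.Unitary.ProjectiveElements
import Cfsg.Agent.GLOrders.SpectrumThree
import Cfsg.Agent.NumTheory.Zsigmondy
import Cfsg.Agent.GraphLie.Basic

/-! The half torus order in `PSU_n(q)`. -/

set_option autoImplicit false

namespace CfsgLib.UnitaryHalf

open Polynomial UniqueFactorizationMonoid CfsgLib.Unitary

variable {F : Type*} [Field F] [Fintype F]

set_option maxHeartbeats 1000000 in
theorem half_torus_iff (q : ℕ) (hF : Fintype.card F = q ^ 2) (hodd : Odd q) (d : ℕ) (hd : 2 ≤ d) :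
    (∃ g : Cfsg.PSU (2 * d) F q, orderOf g = if Even d then q ^ d + 1 else q ^ d - 1) ↔
      padicValNat 2 (q + 1) < padicValNat 2 (2 * d) := by
  classical
  obtain ⟨σ, hσ, hσ2, hσne, hq2⟩ := exists_conj q hF
  obtain ⟨p, hchar⟩ := CharP.exists F
  haveI := hchar
  haveI : Fact p.Prime := ⟨CharP.char_is_prime F p⟩
  have hp : p.Prime := Fact.out
  obtain ⟨a, -, hqa⟩ := FiniteField.card F p
  obtain ⟨e, -, hqe⟩ := (Nat.dvd_prime_pow hp).1 (show q ∣ p ^ (a : ℕ) by rw [← hqa, hF]; exact dvd_pow_self q two_ne_zero)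
  have he0 : e ≠ 0 := by rintro rfl; simp at hqe; omega
  have hpq : p ∣ q := hqe ▸ dvd_pow_self p he0
  have hq3 : 3 ≤ q := by obtain ⟨t, ht⟩ := hodd; omega
  set n := 2 * d with hn
  set N := if Even d then q ^ d + 1 else q ^ d - 1 with hN
  have hNabs : N = (1 + (-(q : ℤ)) ^ d).natAbs := by
    have h1 : (1 : ℤ) ≤ (q : ℤ) ^ d := one_le_pow₀ (by omega)
    rw [hN]
    rcases Nat.even_or_odd d with h | h
    · rw [if_pos h, h.neg_pow, show (1 : ℤ) + (q : ℤ) ^ d = ((q ^ d + 1 : ℕ) : ℤ) by push_cast; ring, Int.natAbs_natCast]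
    · rw [if_neg (Nat.not_even_iff_odd.2 h), h.neg_pow,
        show (1 : ℤ) + -(q : ℤ) ^ d = -((q ^ d - 1 : ℕ) : ℤ) by
          rw [Nat.cast_sub (Nat.one_le_pow _ _ (by omega))]; push_cast; ring, Int.natAbs_neg, Int.natAbs_natCast]
  have huN : uN q n = uN q d * N := by
    have h := uH_mul q d 2
    rw [show d * 2 = n by omega, Finset.sum_range_succ, Finset.sum_range_one, pow_zero, pow_one] at h
    rw [uN, h, Int.natAbs_mul, hNabs, uN]
  set G := Nat.gcd n (q + 1) with hG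
  have hGpos : 0 < G := Nat.gcd_pos_of_pos_right _ (by omega)
  have hdpow : q ≤ q ^ d := Nat.le_self_pow (by omega) q
  have hNpos : 0 < N := by rw [hN]; split_ifs <;> omega
  have hGd : G ∣ uN q d ↔ G ∣ d := by
    rw [← Int.natCast_dvd_natCast (m := G) (n := d), uN, ← Int.natCast_dvd]
    have hq1 : (G : ℤ) ∣ (q : ℤ) + 1 := by exact_mod_cast Nat.gcd_dvd_right n (q + 1)
    exact dvd_iff_dvd_of_dvd_sub (hq1.trans (uH_sub q d))
  have hkey : (N ∣ uM q n) ↔ G ∣ d := by
    rw [uM, ← hG, Nat.dvd_div_iff_mul_dvd (gcd_dvd_uN q n), huN, Nat.mul_dvd_mul_iff_right hNpos, hGd]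
  have hpadic : G ∣ d ↔ padicValNat 2 (q + 1) < padicValNat 2 n := by
    constructor
    · intro hGd
      by_contra hcon
      push Not at hcon
      have h5 : 2 ^ padicValNat 2 n ∣ G := Nat.dvd_gcd pow_padicValNat_dvd
        ((pow_dvd_pow 2 hcon).trans pow_padicValNat_dvd)
      have h6 : 2 ^ (padicValNat 2 n + 1) ∣ n := by
        rw [pow_succ]
        conv_rhs => rw [hn, mul_comm]
        exact Nat.mul_dvd_mul_right (h5.trans hGd) 2
      exact pow_succ_padicValNat_not_dvd (by omega) h6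
    · intro hlt
      have h1 : G ∣ 2 * d := Nat.gcd_dvd_left _ _
      obtain ⟨k, o, ho, hGe⟩ := Nat.exists_eq_two_pow_mul_odd hGpos.ne'
      rw [hGe]
      refine (Nat.Coprime.pow_left k (Nat.coprime_two_left.mpr ho)).mul_dvd_of_dvd_of_dvd ?_ ?_
      · have h2 : 2 ^ k ∣ q + 1 := (hGe ▸ dvd_mul_right _ o).trans (Nat.gcd_dvd_right n (q + 1))
        have h3 : k ≤ padicValNat 2 (q + 1) := (padicValNat_dvd_iff_le (by omega)).mp h2
        have h4 : 2 ^ (k + 1) ∣ n := (pow_dvd_pow 2 (by omega)).trans pow_padicValNat_dvd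
        rw [pow_succ, hn, mul_comm 2 d] at h4
        exact Nat.dvd_of_mul_dvd_mul_right two_pos h4
      · exact (Nat.coprime_two_right.mpr ho).dvd_of_dvd_mul_left ((hGe ▸ dvd_mul_left o _).trans h1)
  rw [← hpadic, ← hkey]
  constructor
  swap
  · intro h
    obtain ⟨x, hx⟩ := exists_psu_singer (F := F) q hF (n := n) (by omega)
    exact GLOrders.exists_orderOf_eq_of_dvd (orderOf_pos x) (h.trans hx)
  rintro ⟨x, hx⟩
  set o := if Even d then n else d with ho
  have ho3 : 3 ≤ o := by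
    rw [ho]
    split_ifs with h
    · omega
    · obtain ⟨t, ht⟩ := Nat.not_even_iff_odd.1 h; omega
  obtain ⟨r, _, hrdvd, hord⟩ := CfsgLib.Zsigmondy.exists_primitive_prime (a := q) (n := o) (by omega) ho3 (by omega)
  have hr : r.Prime := Fact.out
  have hrq : ¬ r ∣ q := by
    intro h
    have h1 : r ∣ q ^ o := dvd_pow h (by omega)
    have h2 := Nat.dvd_sub h1 hrdvd
    rw [show q ^ o - (q ^ o - 1) = 1 by have := Nat.one_le_pow o q (by omega); omega] at h2
    exact hr.not_dvd_one h2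
  have hiff : ∀ i, r ∣ q ^ i - 1 ↔ o ∣ i := fun i => by rw [GraphLie.dvd_pow_sub_one_iff hrq, hord]
  have hrp : r ≠ p := fun h => hrq (h ▸ hpq)
  have hr2 : r ≠ 2 := by
    rintro rfl
    have h := (hiff 1).1 (by obtain ⟨t, ht⟩ := hodd; rw [pow_one]; omega)
    have := Nat.le_of_dvd one_pos h
    omega
  have hself : ∀ D, Odd D → D ≤ n → ¬ r ∣ q ^ D + 1 := by
    intro D hDodd hDn h
    have h1 : r ∣ q ^ (2 * D) - 1 := by
      refine h.trans ⟨q ^ D - 1, ?_⟩
      rw [← Nat.sq_sub_sq, one_pow, ← pow_mul, mul_comm]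
    have h2 := (hiff _).1 h1
    rw [ho] at h2
    split_ifs at h2 with hev
    · obtain ⟨t, ht⟩ := hDodd
      obtain ⟨u, hu⟩ := hev
      have h3 : d ∣ D := Nat.dvd_of_mul_dvd_mul_left two_pos h2
      obtain ⟨c, hc⟩ := h3
      have : 2 ∣ D := hc ▸ (dvd_mul_of_dvd_left ⟨u, by omega⟩ c)
      omega
    · have hco : d.Coprime 2 := Nat.coprime_two_right.mpr (Nat.not_even_iff_odd.1 hev)
      have h3 := (hiff D).2 (by rw [ho, if_neg hev]; exact hco.dvd_of_dvd_mul_left h2)
      have h4 := Nat.dvd_sub h h3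
      rw [show q ^ D + 1 - (q ^ D - 1) = 2 by have := Nat.one_le_pow D q (by omega); omega] at h4
      exact hr2 ((Nat.prime_dvd_prime_iff_eq hr Nat.prime_two).1 h4)
  have hpair : ∀ D, 1 ≤ D → D < d → ¬ r ∣ q ^ (2 * D) - 1 := by
    intro D h1 h2 h
    have h3 := (hiff _).1 h
    rw [ho] at h3
    split_ifs at h3 with hev
    · have := Nat.le_of_dvd (by omega) h3; omega
    · have hco : d.Coprime 2 := Nat.coprime_two_right.mpr (Nat.not_even_iff_odd.1 hev)
      have := Nat.le_of_dvd (by omega) (hco.dvd_of_dvd_mul_left h3); omega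
  have hrN : r ∣ N := by
    rw [hN]
    split_ifs with hev
    · have h1 : q ^ o - 1 = (q ^ d + 1) * (q ^ d - 1) := by
        rw [ho, if_pos hev, ← Nat.sq_sub_sq, one_pow, ← pow_mul, mul_comm]
      rw [h1] at hrdvd
      refine (hr.dvd_mul.mp hrdvd).resolve_right fun h => ?_
      have := Nat.le_of_dvd (by omega) ((hiff d).1 h)
      rw [ho, if_pos hev] at this
      omega
    · rwa [ho, if_neg hev] at hrdvd
  obtain ⟨s, rfl⟩ := QuotientGroup.mk_surjective x
  set g := ((s : Matrix.SpecialLinearGroup (Fin n) F) : Matrix (Fin n) (Fin n) F) with hg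
  have hU : IsU σ g := (mem_SU_iff σ q hσ hσ2 _).mp s.2
  obtain ⟨hmem, hprod, hdeg, hcst, hust⟩ := factors_spec σ hσ2 g hU
  have : Nonempty (Fin n) := ⟨⟨0, by omega⟩⟩
  set S := normalizedFactors g.charpoly with hS
  have hle : ∀ T : Finset F[X], ∑ f ∈ T, S.count f * f.natDegree ≤ n := fun T => by
    have h := GraphLie.sum_count_natDegree g T
    rwa [Fintype.card_fin, ← hS] at h
  have hcountu : ∀ f ∈ S, S.count (ust σ f) = S.count f := fun f hf => by
    conv_lhs => rw [← hust]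
    refine Multiset.count_map_eq_count _ S (fun u hu v hv h => ?_) f hf
    rw [← ust_ust σ hσ2 (hmem u hu).2.1 (hmem u hu).2.2, h, ust_ust σ hσ2 (hmem v hv).2.1 (hmem v hv).2.2]
  have hp2 : ∀ f ∈ S, ust σ f ≠ f → f.natDegree ≤ d := fun f hf hne => by
    have h := hle {f, ust σ f}
    rw [Finset.sum_pair hne.symm, hcountu f hf, natDegree_ust σ (hmem f hf).2.2] at h
    have h1 : 1 * f.natDegree ≤ S.count f * f.natDegree :=
      Nat.mul_le_mul_right _ (Multiset.one_le_count_iff_mem.2 hf)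
    omega
  obtain ⟨f, hf, hfne, hfd⟩ : ∃ f ∈ S, ust σ f ≠ f ∧ f.natDegree = d := by
    by_contra hcon
    push Not at hcon
    set M := (∏ D ∈ (Finset.Icc 1 n).filter (fun D => Odd D), (q ^ D + 1)) *
      ∏ D ∈ Finset.Ico 1 d, (q ^ (2 * D) - 1) with hM
    have hdvd : ∀ f ∈ S, f ∣ X ^ M - C 1 := by
      intro f hf
      haveI : Fact (Irreducible f) := ⟨(hmem f hf).1⟩
      have hD1 := (hmem f hf).1.natDegree_pos
      rw [map_one]
      by_cases h : ust σ f = f
      · obtain ⟨ho', hroot⟩ := self_spec q hF σ hσ hσ2 p e hqe (hmem f hf).2.2 (hmem f hf).2.1 h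
        have h1 : f ∣ X ^ (q ^ f.natDegree + 1) - 1 := AdjoinRoot.mk_eq_zero.1 (by simp [hroot])
        have hDn : f.natDegree ≤ n := by
          have := hle {f}
          rw [Finset.sum_singleton] at this
          exact (Nat.le_mul_of_pos_left _ (Multiset.count_pos.2 hf)).trans this
        obtain ⟨c, hc⟩ := (Finset.dvd_prod_of_mem (fun D => q ^ D + 1)
          (Finset.mem_filter.2 ⟨Finset.mem_Icc.2 ⟨hD1, hDn⟩, ho'⟩)).mul_right
            (∏ D ∈ Finset.Ico 1 d, (q ^ (2 * D) - 1))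
        rw [hM, hc, pow_mul]
        exact h1.trans (sub_one_dvd_pow_sub_one _ c)
      · have h1 := GLOrders.irreducible_dvd_X_pow_sub_one (hmem f hf).1 (hmem f hf).2.2
        rw [Nat.card_eq_fintype_card, hF, ← pow_mul] at h1
        have hlt : f.natDegree < d := lt_of_le_of_ne (hp2 f hf h) (hcon f hf h)
        obtain ⟨c, hc⟩ := (Finset.dvd_prod_of_mem (fun D => q ^ (2 * D) - 1)
          (Finset.mem_Ico.2 ⟨hD1, hlt⟩)).mul_left (∏ D ∈ (Finset.Icc 1 n).filter (fun D => Odd D), (q ^ D + 1))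
        rw [hM, hc, pow_mul]
        exact h1.trans (sub_one_dvd_pow_sub_one _ c)
    have hpow := GLOrders.pow_eq_scalar_of_factors p g M n (Nat.clog p n) 1 (Nat.le_pow_clog hp.one_lt n) hdvd
      (fun f hf => by
        have := hle {f}
        rw [Finset.sum_singleton] at this
        exact le_trans (Nat.le_mul_of_pos_right _ (hmem f hf).1.natDegree_pos) this)
    have h3 : r ∣ M * p ^ Nat.clog p n := hrN.trans (hx ▸
      orderOf_dvd_of_pow_eq_one ((mk_pow_eq_one_iff q hF (by omega) s _).mpr ⟨_, hpow⟩))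
    rcases hr.dvd_mul.mp h3 with h | h
    · rw [hM] at h
      rcases hr.dvd_mul.mp h with h | h
      · obtain ⟨D, hD, hdD⟩ := (Nat.Prime.prime hr).exists_mem_finset_dvd h
        rw [Finset.mem_filter, Finset.mem_Icc] at hD
        exact hself D hD.2 hD.1.2 hdD
      · obtain ⟨D, hD, hdD⟩ := (Nat.Prime.prime hr).exists_mem_finset_dvd h
        rw [Finset.mem_Ico] at hD
        exact hpair D hD.1 hD.2 hdD
    · exact hrp ((Nat.prime_dvd_prime_iff_eq hr hp).mp (hr.dvd_of_dvd_pow h))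
  have hufS : ust σ f ∈ S := by rw [← hust]; exact Multiset.mem_map_of_mem _ hf
  have hc1 : S.count f = 1 := by
    have h := hle {f, ust σ f}
    rw [Finset.sum_pair hfne.symm, hcountu f hf, natDegree_ust σ (hmem f hf).2.2, hfd] at h
    have h1 := Multiset.one_le_count_iff_mem.2 hf
    by_contra hne
    have : 2 * d ≤ S.count f * d := Nat.mul_le_mul_right _ (by omega)
    omega
  have hSeq : S = f ::ₘ {ust σ f} := by
    refine Multiset.ext.2 fun v => ?_
    rw [Multiset.count_cons, Multiset.count_singleton]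
    by_cases h1 : v = f
    · subst h1; rw [if_pos rfl, if_neg hfne.symm, hc1]
    by_cases h2 : v = ust σ f
    · subst h2; rw [if_neg hfne, if_pos rfl, hcountu f hf, hc1]
    rw [if_neg h1, if_neg h2, zero_add, Multiset.count_eq_zero]
    intro hv
    have h := hle {f, ust σ f, v}
    rw [Finset.sum_insert (by simp [hfne.symm, Ne.symm h1]), Finset.sum_pair (Ne.symm h2), hcountu f hf, hc1,
      natDegree_ust σ (hmem f hf).2.2, hfd] at h
    have := Nat.mul_pos (Multiset.count_pos.2 hv) (hmem v hv).1.natDegree_pos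
    omega
  have hcpos : (cst f * (σ (cst f))⁻¹) ^ 1 = 1 := by
    rw [hSeq] at hcst
    simp only [Multiset.map_cons, Multiset.map_singleton, Multiset.prod_cons, Multiset.prod_singleton] at hcst
    rw [pow_one, ← cst_ust σ (hmem f hf).2.1 (hmem f hf).2.2, hcst]
    exact (s : Matrix.SpecialLinearGroup (Fin n) F).2
  have hdvd : f ∣ X ^ uN q n - 1 := dvd_X_pow_uN_sub_one q hF σ hσ hσ2 p e hqe hq2 (hmem f hf).1 (hmem f hf).2.1
    (hmem f hf).2.2 n 1 (Or.inr ⟨by omega, hcpos⟩)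
  obtain ⟨ξ, hξ⟩ : ∃ ξ : F, IsPrimitiveRoot ξ G := by
    obtain ⟨w, hw⟩ := IsCyclic.exists_generator (α := Fˣ)
    have hwo : orderOf w = q ^ 2 - 1 := by
      rw [orderOf_eq_card_of_forall_mem_zpowers hw, Nat.card_units, Nat.card_eq_fintype_card, hF]
    have hd' : G ∣ q ^ 2 - 1 := (Nat.gcd_dvd_right n (q + 1)).trans ⟨q - 1, by rw [← Nat.sq_sub_sq, one_pow]⟩
    have hpos : 0 < q ^ 2 - 1 := hwo ▸ orderOf_pos w
    have h1 : IsPrimitiveRoot w (q ^ 2 - 1) := hwo ▸ IsPrimitiveRoot.orderOf w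
    exact ⟨_, (h1.pow hpos (Nat.div_mul_cancel hd').symm).map_of_injective (f := Units.coeHom F) Units.val_injective⟩
  obtain ⟨ζ, hζ, hζd⟩ : ∃ ζ : F, ζ ^ G = 1 ∧ f ∣ X ^ uM q n - C ζ := by
    rw [← uM_mul q n, mul_comm, pow_mul] at hdvd
    have h1 : ((X : F[X]) ^ uM q n) ^ G - 1 = ∏ ζ ∈ nthRootsFinset G (1 : F), (X ^ uM q n - C ζ) := by
      have h2 := congrArg (fun P : F[X] => P.comp (X ^ uM q n)) (X_pow_sub_one_eq_prod hGpos hξ)
      simpa [Polynomial.prod_comp] using h2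
    rw [h1] at hdvd
    obtain ⟨ζ, hζ, hd⟩ := (hmem f hf).1.prime.exists_mem_finset_dvd hdvd
    exact ⟨ζ, (mem_nthRootsFinset hGpos (1 : F)).mp hζ, hd⟩
  have hζ1 : σ ζ * ζ = 1 := by
    obtain ⟨k, hk⟩ := Nat.gcd_dvd_right n (q + 1)
    rw [hσ, ← pow_succ, hk, pow_mul, ← hG, hζ, one_pow]
  have hall : ∀ v ∈ S, v ∣ X ^ uM q n - C ζ := by
    intro v hv
    rw [hSeq, Multiset.mem_cons, Multiset.mem_singleton] at hv
    rcases hv with rfl | rfl
    · exact hζd
    · have h1 : f.map σ ∣ X ^ uM q n - C (σ ζ) := by simpa using Polynomial.map_dvd σ hζd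
      have h2 := star_dvd' ((Polynomial.map_ne_zero_iff σ.injective).mpr (hmem f hf).1.ne_zero)
        (fun h => by rw [h, zero_mul] at hζ1; exact zero_ne_one hζ1) h1
      rwa [inv_eq_of_mul_eq_one_right hζ1] at h2
  have hpow := GLOrders.pow_eq_scalar_of_factors p g (uM q n) 1 0 ζ (by simp) hall (fun v hv => by
    rw [← hS, hSeq] at hv ⊢
    refine Multiset.nodup_iff_count_le_one.1 ?_ v
    simp [hfne.symm])
  rw [pow_zero, mul_one] at hpow
  exact hx ▸ orderOf_dvd_of_pow_eq_one ((mk_pow_eq_one_iff q hF (by omega) s _).mpr ⟨_, hpow⟩)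

end CfsgLib.UnitaryHalf
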